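import Cfsg.Agent.H263.P8.Star
import Cfsg.Agent.H271.Offender
import Cfsg.Agent.H271.AutSn
import Cfsg.Agent.H244.RootAsm

/-!
# (T*) for q = 2: the field `two` of `Cfsg.Agent.H244.RootAsm.Pcs`
-/

set_option autoImplicit false

namespace Cfsg.Agent.H263.P8

open Subgroup Cfsg Cfsg.Agent.H250.Root Cfsg.Agent.H259.Block Cfsg.Agent.H252.RootSys

universe u v

theorem off_all (m : ℕ) : Off m := fun R hR hc c r hr hrc => Cfsg.Agent.H271.Offender.off R hR hc c r hr hrc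

theorem inn_all (m : ℕ) (h5 : 5 ≤ m) (ho : Odd m) : Inn m := fun θ => Cfsg.Agent.H271.Offender.aut h5 ho θ

/-- **the field `two` of `Pcs`** -/
theorem two {G : Type u} [Group G] [Finite G] {X : Type v} [Group X] {V : Subgroup G} [MulDistribMulAction X ↥V]
    {π : G →* X} {p : ℕ} [hp : Fact p.Prime] (hG : centralizer (pCore p G : Set G) ≤ pCore p G) (hV : VG p V)
    (hQ : Cfsg.Agent.H252.RootSys.Quo V π) {C : Subgroup G → Subgroup G} (hD : Dat ↥V p 2 (DD p 2 V π C)) :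
    p = 2 → ∀ (T : Sylow p G) (F Ah : Subgroup G), IsBaumannBlock p (T : Subgroup G) F →
    S12 p 2 (baumannSubgroupOf p (T : Subgroup G)) F (we p F) Ah →
    Rt p 2 V π (C T) (T : Subgroup G) F (Ah.map π) →
    ∃ E : Subgroup G, E.IsSubnormal ∧ IsBaumannBlock p (T : Subgroup G) E ∧ F ≤ E := by
  rintro rfl T F Ah hb hs hR
  have hW : we 2 F ≤ pCoreOf 2 F := by
    have h1 : omegaOneCenter 2 (pCoreOf 2 F) ≤ pCoreOf 2 F := Cfsg.Agent.H258.Bau.omegaOneCenter_le _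
    refine le_trans (Subgroup.commutator_le.2 fun w hw f hf => ?_) h1
    have h2 := (le_normalizer_ww (p := 2) F) hf
    rw [commutatorElement_def, show w * f * w⁻¹ * f⁻¹ = w * (f * w⁻¹ * f⁻¹) by group]
    exact mul_mem hw ((mem_normalizer_iff.1 h2 _).1 (inv_mem hw))
  exact star (W := we 2 F) (Ah := Ah) (D := DD 2 2 V π C)
    ⟨hG, hV, hQ, hD, hb, hs, hW, ⟨T, F, hR⟩, hR.nl, Cfsg.Agent.H244.RootSub.cent_le_norm hG hV T hb⟩ inn_all off_all

end Cfsg.Agent.H263.P8
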